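import Cfsg.Agent.H217.Odm.Eng2
import Cfsg.Agent.J2Type.ThreeF
import Cfsg.Agent.J2Type.FiveFus
import Cfsg.Agent.KFacts.J2.Facts
import Cfsg.Agent.NotCT.Orders

/-!
# TEAM ODDM (S4785): the Hall–Janko group (helper89)

`r = 7`, `|N(⟨x⟩)| = 42`, no element of order 35; two real elements of order 5 generating non-conjugate subgroups.
-/

set_option autoImplicit false

namespace Cfsg.Agent.H89.OdmRowJ2

open Subgroup Cfsg Cfsg.Agent.H453.OddM Cfsg.Agent.H217.Odm Cfsg.Agent.J2Type.Base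

universe u

section

variable {G : Type*} [Group G] [Finite G] {z u : G}

/-- Two real elements of order 5 generating non-conjugate subgroups. -/
theorem five (h : Fus z u) : ∃ x y : G, orderOf x = 5 ∧ orderOf y = 5 ∧ IsReal x ∧ IsReal y ∧
    ∀ g : G, g * y * g⁻¹ ∉ zpowers x := by
  have : Fact (Nat.Prime 5) := ⟨by norm_num⟩
  obtain ⟨f, U, V, H0, F⟩ := Cfsg.Agent.J2Type.CentU.main h
  have h60 : Nat.card H0 = 60 := by
    have h1 := Cfsg.Agent.J2Type.Order.card_centralizer_u h
    rw [F.str.card] at h1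
    omega
  obtain ⟨w', hw'⟩ := exists_prime_orderOf_dvd_card' (G := H0) 5 (by rw [h60]; norm_num)
  obtain ⟨w, hw⟩ := exists_prime_orderOf_dvd_card' (G := centralizer ({z} : Set G)) 5
    (by rw [h.cardC]; norm_num)
  have hw'5 : orderOf (w' : G) = 5 := by rw [orderOf_coe]; exact hw'
  have hw5 : orderOf (w : G) = 5 := by rw [orderOf_coe]; exact hw
  have hwz : (w : G) * z = z * w := mem_centralizer_singleton_iff.mp w.2
  have hgood := Cfsg.Agent.J2Type.Cent5.good_of_mem h F h60 w'.2 hw'5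
  obtain ⟨-, hreal', V4, hV, hsq, hVw, -⟩ := hgood
  refine ⟨w', w, hw'5, hw5, isConj_iff.1 hreal',
    isConj_iff.1 (Cfsg.Agent.J2Type.FiveFus.real_of_comm h hw5 hwz), fun g hg => ?_⟩
  apply Cfsg.Agent.J2Type.FiveFus.not_four_dvd h hw5 hwz
  -- the four-group centralizes the conjugate of `w`
  rw [← hV]
  have hinj : Nat.card (V4.map (MulAut.conj g⁻¹).toMonoidHom) = Nat.card V4 :=
    Subgroup.card_map_of_injective (MulAut.conj g⁻¹).injective
  rw [← hinj]
  apply Subgroup.card_dvd_of_le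
  rintro _ ⟨v, hv, rfl⟩
  rw [mem_centralizer_singleton_iff]
  obtain ⟨k, hk⟩ := mem_zpowers_iff.1 hg
  have h1 : Commute v (g * w * g⁻¹) := by
    rw [← hk]
    exact (show Commute v (w' : G) from hVw v hv).zpow_right k
  show g⁻¹ * v * g⁻¹⁻¹ * w = w * (g⁻¹ * v * g⁻¹⁻¹)
  calc g⁻¹ * v * g⁻¹⁻¹ * w = g⁻¹ * (v * (g * w * g⁻¹)) * g := by group
    _ = g⁻¹ * ((g * w * g⁻¹) * v) * g := by rw [h1.eq]
    _ = w * (g⁻¹ * v * g⁻¹⁻¹) := by group

/-- centralizer and normalizer of an element of order 7 -/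
theorem seven (h : Fus z u) {x : G} (hx : orderOf x = 7) :
    Nat.card (centralizer ({x} : Set G)) = 7 ∧ Nat.card (normalizer ((zpowers x : Subgroup G) : Set G)) = 42 := by
  have f7 : Fact (Nat.Prime 7) := ⟨by norm_num⟩
  have hG := Cfsg.Agent.J2Type.Order.card_of_fus h
  have hc : Nat.card (zpowers x) = 7 := by rw [Nat.card_zpowers, hx]
  have hfac : (Nat.card G).factorization 7 = 1 := by
    rw [hG]
    have h1 : (604800 : ℕ) = 7 ^ 1 * 86400 := by norm_num
    rw [h1, Nat.factorization_mul (by norm_num) (by norm_num), Finsupp.add_apply,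
      Nat.Prime.factorization_pow (by norm_num), Finsupp.single_eq_same,
      Nat.factorization_eq_zero_of_not_dvd (by norm_num)]
  let D : Sylow 7 G := Sylow.ofCard (zpowers x) (by rw [hc, hfac, pow_one])
  have hD : (D : Subgroup G) = zpowers x := rfl
  obtain ⟨h1, h2, -⟩ := Cfsg.Agent.J2Type.ThreeF.sylow_seven h D
  rw [hD] at h1 h2
  refine ⟨?_, h2⟩
  have h3 : centralizer ({x} : Set G) = centralizer ((zpowers x : Subgroup G) : Set G) := by
    rw [zpowers_eq_closure, centralizer_closure]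
  rw [h3, h1, hc]

end

/-- **The row of `J₂`.** -/
theorem row (tab : Cfsg.Agent.OrdDiv.OrderTable.{u}) (known : Cfsg.Agent.H257.El.Known.{u}) {T : Type u} [Group T]
    (h : Cfsg.Spor.IsoJ2 T) : Cfsg.Agent.H453.OddM.Row T := by
  have hc : Nat.card T = 604800 := NotCT.Orders.j2 h
  have : Finite T := Nat.finite_of_card_ne_zero (by rw [hc]; norm_num)
  obtain ⟨t, u, Q, v, ρ, D⟩ := KFacts.J2.Facts.exists_dat_of h
  have hF : Fus t u := D.F
  have hcent : ∀ x : T, orderOf x = 7 → Nat.card (centralizer ({x} : Set T)) = 7 := fun x hx => (seven hF hx).1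
  have hnorm : ∀ x : T, orderOf x = 7 → Nat.card (normalizer ((zpowers x : Subgroup T) : Set T)) = 7 * 6 :=
    fun x hx => (seven hF hx).2
  have hreal : RealP T 7 := by
    have h7 : Fact (Nat.Prime 7) := ⟨by norm_num⟩
    obtain ⟨x, hx⟩ := exists_prime_orderOf_dvd_card' (G := T) 7 (by rw [hc]; norm_num)
    refine ⟨x, hx, (norm_of_cent (r := 7) (n := 86400) (c := 1) (e := 6) (by norm_num) (by rw [hc]) (by norm_num) hx
      (by rw [hcent x hx]) (by norm_num) (by norm_num)).2 (by decide)⟩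
  obtain ⟨x, y, hx, hy, hxr, hyr, hxy⟩ := five hF
  have hno : ∀ z : T, orderOf z ≠ 7 * 5 :=
    H257.El.noOrd_of_cent (by norm_num) hcent (by norm_num) (by norm_num)
  refine row_of_left (n := 604800) (l := [(2, 7), (3, 3), (5, 2), (7, 1)]) (r := 7) (ss := [5])
    (aux := [(7, 6, true)]) (dv := [25]) tab known hc (by norm_num) (fun R hR => hR.cov.dvd hreal) (fun s hs => ?_)
    (fun R hR x hx => ?_) (fun R hR d hd => ?_) (by decide +kernel) (by decide +kernel)
  · obtain rfl : s = 5 := by simpa using hs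
    exact ⟨by norm_num, fun R hR => hR.cov.dvd ⟨x, hx, hxr⟩, hno⟩
  · obtain rfl : x = (7, 6, true) := by simpa using hx
    exact Pt.of_real hR (by norm_num) (by norm_num) hreal (by norm_num) hnorm true
  · obtain rfl : d = 25 := by simpa using hd
    exact sq_dvd_of_two hR (by norm_num) hx hy hxr hyr hxy

end Cfsg.Agent.H89.OdmRowJ2
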